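import Cfsg.Agent.Lib.Gar.D
import Cfsg.Agent.Lib.Pal.Main

/-! Groups without divisibility among character degrees: a normal subgroup of prime index all of
whose nonlinear characters extend. -/

set_option autoImplicit false

namespace Cfsg.Lib.Nda
open Cfsg.Lib.Char Cfsg.Lib.CharDeg Cfsg.Lib.Clifford Cfsg.Lib.Induce Cfsg.Lib.Core Cfsg.Lib.Gar
  Cfsg.Lib.RelGraph Subgroup
open scoped commutatorElement

variable {G : Type*} [Group G] [Fintype G] {N : Subgroup G} {r : ℕ} {χ : G → ℂ}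

theorem ito_kr {A K : Subgroup G} [hA : A.Normal] [K.Normal] (h : ⁅A, A⁆ ≤ K)
    (hχ : IsIrrCharacter G χ) (hk : Kr χ K) : charDegree χ ∣ A.index := by
  obtain ⟨ψ, h1, h2⟩ := hχ.exists_deflate K hk
  have := hA.map _ (QuotientGroup.mk'_surjective K)
  rw [commutator_le_iff_map_mk', commutator_eq_bot_iff_le_centralizer] at h
  rw [show charDegree χ = charDegree ψ from charDegree_congr (h2 1).symm]
  exact (charDegree_dvd_index_of_comm _ h1 fun a ha b hb => (h ha b hb).symm).trans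
    (index_map_dvd _ (QuotientGroup.mk'_surjective K))

theorem kr_lin {φ : N → ℂ} (hφ : IsCharacter N φ) (e : charDegree φ = 1) (y : N)
    (hy : (y : G) ∈ ⁅N, N⁆) : φ y = φ 1 := by
  refine kr_comm hφ e y ?_
  rw [← map_subtype_commutator] at hy
  obtain ⟨z, hz, e⟩ := hy
  exact (Subtype.ext e : z = y) ▸ hz

theorem kr_iff [N.Normal] (hχ : IsIrrCharacter G χ) {φ : N → ℂ} (hφ : IsIrrCharacter N φ)
    (h : ov N χ φ) : Kr χ ⁅N, N⁆ ↔ charDegree φ = 1 := by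
  refine ⟨fun hk => ?_, fun e => kr_of_const (commutator_le_left N N) hχ hφ h
    (kr_lin hφ.isCharacter e)⟩
  obtain ⟨μ, rfl, -⟩ := hom_of_kr le_rfl hφ (const_kr hχ.isCharacter hk hφ h)
  exact charDegree_hom μ

theorem ex_primary {L : Subgroup G} [L.Normal] {c : G} (h : c ∉ L) :
    ∃ p k : ℕ, p.Prime ∧ ∃ n ∈ zpowers c, n ∉ L ∧ n ^ p ^ k = 1 := by
  obtain ⟨p, hp, hd⟩ := Nat.exists_prime_and_dvd (n := orderOf (c : G ⧸ L))
    fun e => h ((QuotientGroup.eq_one_iff c).1 (orderOf_eq_one_iff.1 e))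
  obtain ⟨k, j, h1, h2⟩ := Nat.exists_eq_pow_mul_and_not_dvd (orderOf_pos c).ne' p hp.ne_one
  refine ⟨p, k, hp, c ^ j, pow_mem (mem_zpowers c) j, fun e => h1 (hd.trans
    (orderOf_dvd_of_pow_eq_one ?_)), by rw [← pow_mul, mul_comm, ← h2, pow_orderOf_eq_one]⟩
  rw [← QuotientGroup.mk_pow, QuotientGroup.eq_one_iff]; exact e

/-- The elements central modulo `N'`. -/
abbrev Lc (N : Subgroup G) [N.Normal] : Subgroup G :=
  (center (G ⧸ ⁅N, N⁆)).comap (QuotientGroup.mk' _)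

omit [Fintype G] in
theorem mem_Lc [N.Normal] {a : G} : a ∈ Lc N ↔ ∀ g : G, ⁅g, a⁆ ∈ ⁅N, N⁆ := by
  rw [mem_comap, mem_center_iff, (QuotientGroup.mk'_surjective _).forall]
  refine forall_congr' fun g => ?_
  rw [← commutatorElement_eq_one_iff_mul_comm, ← map_commutatorElement, QuotientGroup.mk'_apply,
    QuotientGroup.eq_one_iff]

/-- The standing hypotheses. -/
structure Hy (G : Type*) [Group G] [Finite G] (N : Subgroup G) (r : ℕ) : Prop where
  hr : r.Prime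
  idx : N.index = r
  ab : ∀ χ, IsIrrCharacter G χ → r ∣ charDegree χ → Kr χ ⁅N, N⁆
  nd : ∀ a ∈ cd G, ∀ b ∈ cd G, a ≠ 1 → a ∣ b → a = b
  mv : ¬ ⁅(⊤ : Subgroup G), N⁆ ≤ ⁅N, N⁆

theorem ne1 (hχ : IsIrrCharacter G χ) (hk : ¬ Kr χ ⁅N, N⁆) : charDegree χ ≠ 1 := fun e =>
  hk fun x hx => kr_comm hχ.isCharacter e x (commutator_mono le_top le_top hx)

namespace Hy
variable [hN : N.Normal] (h : Hy G N r)
include h

omit hN in
theorem cop (hχ : IsIrrCharacter G χ) (hk : ¬ Kr χ ⁅N, N⁆) : (charDegree χ).Coprime r :=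
  (h.hr.coprime_iff_not_dvd.2 fun e => hk (h.ab χ hχ e)).symm

omit hN in
theorem eq_of_dvd {ψ : G → ℂ} (hχ : IsIrrCharacter G χ) (hψ : IsIrrCharacter G ψ)
    (hk : ¬ Kr χ ⁅N, N⁆) (hd : charDegree χ ∣ charDegree ψ) : charDegree χ = charDegree ψ :=
  h.nd _ (charDegree_mem_cd hχ) _ (charDegree_mem_cd hψ) (ne1 hχ hk) hd

theorem res {ψ : N → ℂ} (hψ : IsIrrCharacter N ψ) (h1 : charDegree ψ ≠ 1) :
    inertia N ψ = ⊤ ∧ ∃ χ, IsIrrCharacter G χ ∧ ¬ Kr χ ⁅N, N⁆ ∧ charDegree χ = charDegree ψ := by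
  obtain ⟨χ, hχ, ho⟩ := exists_irr_above N hψ
  have hk := mt (kr_iff hχ hψ ho).1 h1
  have hc := h.cop hχ hk
  obtain ⟨k, k1, k2⟩ := exists_charDegree_eq_mul N hχ hψ ho
  refine ⟨index_eq_one.1 (Nat.eq_one_of_dvd_coprimes hc (idx_dvd hχ hψ ho)
    (h.idx ▸ index_dvd_of_le (le_inertia N hψ.isClassFunction))), χ, hχ, hk, ?_⟩
  rw [k2, Nat.eq_one_of_dvd_coprimes hc ⟨_, k2⟩ (h.idx ▸ k1), one_mul]

theorem inv {ψ : N → ℂ} (hψ : IsIrrCharacter N ψ) (h1 : charDegree ψ ≠ 1) (g : G) (b : Lin N) :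
    tw (cj g b) ψ = tw b ψ := by
  have e := (mem_inertia N).1 ((h.res (irr_tw b hψ) (by rwa [deg_tw])).1.ge (mem_top g))
  rwa [conjChar_tw, (mem_inertia N).1 ((h.res hψ h1).1.ge (mem_top g))] at e

omit h [Fintype G] in
theorem cj_ap (g : G) (b : Lin N) (a : N) (hc : ⁅g, (a : G)⁆ ∈ N) :
    (cj g b).hom a = b.hom ⟨_, hc⟩ * b.hom a := by
  rw [← map_mul]
  exact congrArg b.hom (Subtype.ext (by simp [commutatorElement_def]))

theorem pw (hχ : IsIrrCharacter G χ) (hk : ¬ Kr χ ⁅N, N⁆) (g : G) {a : G} (ha : a ∈ N) :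
    ⁅g, a⁆ ^ charDegree χ ∈ ⁅N, N⁆ := by
  have hc : ⁅g, a⁆ ∈ N := commutator_le_right _ _ (commutator_mem_commutator (mem_top g) ha)
  have hψ := isIrrCharacter_res_of_coprime N hχ (h.idx ▸ h.cop hχ hk)
  by_contra hn
  obtain ⟨b, -, hb⟩ := ex_lam le_rfl (pow_mem hc _) hn
  have e := mul_right_cancel (((det_tw _ hψ.isCharacter).symm.trans (congrArg (det (N := N))
    (h.inv hψ (by rw [deg_res]; exact ne1 hχ hk) g b))).trans (det_tw b hψ.isCharacter))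
  rw [deg_res] at e
  have e2 : (cj g b).hom ⟨a, ha⟩ ^ charDegree χ = b ⟨a, ha⟩ ^ charDegree χ :=
    congrArg (fun c : Lin N => c.hom ⟨a, ha⟩) e
  rw [cj_ap g b _ hc, mul_pow] at e2
  exact hb ((map_pow b ⟨_, hc⟩ _).trans (mul_eq_right.1 e2))

theorem van {ψ : N → ℂ} (hψ : IsIrrCharacter N ψ) (h1 : charDegree ψ ≠ 1) {a : N}
    (ha : (a : G) ∉ Lc N) : ψ a = 0 := by
  obtain ⟨g, hg⟩ := not_forall.1 (mt mem_Lc.2 ha)
  have hc : ⁅g, (a : G)⁆ ∈ N := commutator_le_right _ _ (commutator_mem_commutator (mem_top g) a.2)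
  obtain ⟨b, -, hb⟩ := ex_lam le_rfl hc hg
  by_contra h0
  have e : (cj g b).hom a = b a := Units.ext (mul_right_cancel₀ h0 (congrFun (h.inv hψ h1 g b) a))
  rw [cj_ap g b _ hc] at e
  exact hb (mul_eq_right.1 e)

theorem cam {a z : G} (ha : a ∈ N) (hL : a ∉ Lc N) (hz : z ∈ ⁅N, N⁆) {k : ℕ} (hk : a ^ k = 1) :
    (a * z) ^ k = 1 := by
  have hz' := commutator_le_left N N hz
  obtain ⟨c, hc⟩ := isConj_iff.1 (isConj_of_forall_irr (g := (⟨a, ha⟩ : N))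
    (h := ⟨a, ha⟩ * ⟨z, hz'⟩) fun ψ hψ => by
      by_cases e : charDegree ψ = 1
      · exact (hψ.isCharacter.apply_mul_of_apply_eq' (kr_lin hψ.isCharacter e ⟨z, hz'⟩ hz) _).symm
      · rw [h.van hψ e hL, h.van hψ e
          fun e' => hL ((mul_mem_cancel_right (le_comap_mk'' _ _ hz)).1 e')])
  rw [show a * z = c * a * (c : G)⁻¹ from (congrArg Subtype.val hc).symm, conj_pow, hk]
  simp

omit h [Fintype G] in
theorem cm {a b : G} (ha : a ∈ N) (hb : b ∈ N) : Commute (a : G ⧸ ⁅N, N⁆) b :=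
  commutatorElement_eq_one_iff_commute.1
    ((QuotientGroup.eq_one_iff _).2 (commutator_mem_commutator ha hb))

theorem dvd {n : G} (h1 : n ∈ N) (h2 : n ∉ Lc N) {p k : ℕ} (hp : p.Prime) (h3 : n ^ p ^ k = 1)
    (hχ : IsIrrCharacter G χ) (hk : ¬ Kr χ ⁅N, N⁆) : p ∣ charDegree χ := by
  by_contra hd
  refine h2 (mem_Lc.2 fun g => mem_of_pows (m := p ^ k)
    ((hp.coprime_iff_not_dvd.2 hd).pow_left k) ?_ (h.pw hχ hk g h1))
  rw [← QuotientGroup.eq_one_iff, QuotientGroup.mk_pow, commutatorElement_def, QuotientGroup.mk_mul,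
    (cm (hN.conj_mem _ h1 g) (inv_mem h1)).mul_pow, ← QuotientGroup.mk_pow, ← QuotientGroup.mk_pow,
    conj_pow, inv_pow, h3]
  simp

theorem ex_n (h0 : ⁅N, N⁆ ≠ ⊥) : ∃ p k : ℕ, p.Prime ∧
    ∃ n ∈ _root_.commutator G, n ∈ N ∧ n ∉ Lc N ∧ n ^ p ^ k = 1 := by
  obtain ⟨χ, hχ, hk⟩ := ex_not_kr h0
  have h1 := mt commutator_le.2 h.mv
  push Not at h1
  obtain ⟨g, -, a, ha, h1⟩ := h1
  have hc : ⁅g, a⁆ ∈ N := commutator_le_right _ _ (commutator_mem_commutator (mem_top g) ha)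
  have h2 : ⁅g, a⁆ ∉ Lc N := fun e => by
    refine h1 (mem_of_pows (h.cop hχ hk) (h.pw hχ hk g ha) ?_)
    have e1 := conj_pow_fix (G := G ⧸ ⁅N, N⁆) (d := g) (x := a) (y := (⁅g, a⁆ : G))
      (by simp [commutatorElement_def]) (by
        rw [mul_inv_eq_iff_eq_mul]; exact mem_center_iff.1 e _) r
    rw [← QuotientGroup.mk_pow, (cm (h.idx ▸ N.pow_index_mem g) ha).eq, mul_inv_cancel_right,
      eq_comm, mul_eq_right, ← QuotientGroup.mk_pow] at e1
    exact (QuotientGroup.eq_one_iff _).1 e1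
  obtain ⟨p, k, hp, n, n1, n2, n3⟩ := ex_primary h2
  exact ⟨p, k, hp, n, zpowers_le.2 (commutator_mem_commutator (mem_top g) (mem_top a)) n1,
    zpowers_le.2 hc n1, n2, n3⟩

omit h in
theorem compl {s : ℕ} (hs : s.Prime)
    (hd : ∀ χ, IsIrrCharacter G χ → ¬ Kr χ ⁅N, N⁆ → s ∣ charDegree χ) :
    ∃ R : Subgroup G, R.Normal ∧ R ≤ N ∧ (Nat.card R).Coprime s ∧ ∃ k, R.relIndex N = s ^ k := by
  have := Fact.mk hs
  obtain ⟨M, h1, h2, h3⟩ := exists_complement_of_rel N (p := s) fun χ hχ ⟨x, a, b⟩ =>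
    hd χ hχ fun e => b (e x a)
  obtain ⟨k, hk⟩ := h3.exists_card_eq
  refine ⟨(pPrimeCore s N).map N.subtype, inferInstance, map_subtype_le _, by
    rw [card_subtype]; exact pPrimeCore_coprime s N, ?_⟩
  rw [relIndex, subgroupOf, comap_map_eq_self_of_injective N.subtype_injective]
  exact ((Nat.dvd_prime_pow hs).1 ((index_dvd_of_le (le_pPrimeCore h1 h2)).trans hk.dvd)).imp fun _ e => e.2

theorem quot (M : Subgroup G) [M.Normal] (hM : M ≤ ⁅N, N⁆) :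
    Hy (G ⧸ M) (N.map (QuotientGroup.mk' M)) r where
  hr := h.hr
  idx := by
    rw [← h.idx, ← index_comap_of_surjective _ (QuotientGroup.mk'_surjective M), comap_map_mk',
      sup_eq_left.2 (hM.trans (commutator_le_left N N))]
  ab χ h1 h2 := by
    rw [← map_commutator]
    rintro _ ⟨x, hx, rfl⟩
    exact h.ab _ h1.inflate h2 x hx
  nd a ha b hb := h.nd a (cd_quotient_subset M ha) b (cd_quotient_subset M hb)
  mv e := h.mv (by
    rw [← map_top_of_surjective _ (QuotientGroup.mk'_surjective M), ← map_commutator,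
      ← map_commutator, map_mk'_le_map_mk'_iff, sup_eq_left.2 hM] at e
    exact e)

end Hy

end Cfsg.Lib.Nda
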