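import Cfsg.Agent.Lib.Nda.A

/-! The inductive step: `N'` centralizes the minimal normal subgroup `M`. -/

set_option autoImplicit false

namespace Cfsg.Lib.Nda
open Cfsg.Lib.Char Cfsg.Lib.CharDeg Cfsg.Lib.Clifford Cfsg.Lib.Induce Cfsg.Lib.Core Cfsg.Lib.Gar
  Cfsg.Lib.RelGraph Cfsg.Lib.BG Subgroup
open scoped commutatorElement

variable {G : Type*} [Group G] [Fintype G] {N M : Subgroup G} {r p q k m : ℕ} {n : G} {χ : G → ℂ}

theorem le_small {K T : Subgroup G} (h : ∀ ψ, IsIrrCharacter G ψ → ov T ψ (fun _ => 1) →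
    charDegree ψ < T.index → Kr ψ K) : K ≤ T := by
  by_cases h0 : T = ⊤
  · exact h0 ▸ le_top
  have hc := isCharacter_indFun T (isCharacter_one (G := T))
  refine le_trans (fun x hx => hc.mem_charKer_iff.2 ?_)
    (charKer_indFun_le T isCharacter_one one_ne_zero)
  rw [hc.isClassFunction.apply_eq_sum_irr, hc.isClassFunction.apply_eq_sum_irr 1]
  refine Finset.sum_congr rfl fun ψ _ => ?_
  by_cases h1 : classInner (indFun T fun _ => (1 : ℂ)) ψ = 0
  · simp [h1]
  · rw [h _ ψ.2 ((ov_iff ψ.2.isClassFunction).1 h1)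
      (charDegree_lt_index_of_constituent h0 ψ.2 h1) x hx]

omit [Fintype G] in
theorem cen_of [M.Normal] (hM : IsMinNormal M) {μ : M →* ℂˣ} (h1 : μ ≠ 1) {K : Subgroup G}
    [K.Normal] (h : K ≤ inertia M (ln μ)) : K ≤ 𝐂(M) := by
  rcases hM.min_invariant ⁅K, M⁆ le_normalizer_of_normal (commutator_le_right _ _) with e | e
  · exact commutator_eq_bot_iff_le_centralizer.1 e
  · exact absurd (MonoidHom.ext fun y => lam_comm h y (e.ge y.2)) h1

theorem mem_of_pp {X : Subgroup G} {z : G} {i j : ℕ} (hp : p.Prime) (hq : q.Prime) (h : p ≠ q)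
    (h1 : z ^ p ^ i ∈ X) (h2 : z ^ q ^ j ∈ X) : z ∈ X :=
  mem_of_pows (Nat.coprime_pow_primes i j hp hq h) h1 h2

/-- The data of the inductive step. -/
structure St (G : Type*) [Group G] [Finite G] (N M : Subgroup G) [N.Normal] (r p q k m : ℕ) (n : G) :
    Prop extends Hy G N r where
  mn : IsMinNormal M
  le : M ≤ ⁅N, N⁆
  hq : q.Prime
  pq : IsPGroup q M
  hp : p.Prime
  ne : p ≠ q
  n1 : n ∈ _root_.commutator G
  n2 : n ∈ N
  n3 : n ∉ Lc N
  n4 : n ^ p ^ k = 1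
  hm : ∀ χ, IsIrrCharacter G χ → Kr χ M → ¬ Kr χ ⁅N, N⁆ → charDegree χ = m

namespace St
variable [hN : N.Normal] [hM : M.Normal] (s : St G N M r p q k m n)
include s

omit hM in
theorem ncen : n ∉ 𝐂(M) := fun h => s.mn.ne_bot <| (eq_bot_iff_forall _).2 fun z hz => by
  obtain ⟨j, hj⟩ := s.pq ⟨z, hz⟩
  have h1 := s.cam s.n2 s.n3 (s.le hz) s.n4
  rw [(show Commute n z from (h z hz).symm).mul_pow, s.n4, one_mul] at h1
  exact mem_of_pp (X := ⊥) s.hp s.hq s.ne h1 (congrArg Subtype.val hj)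

omit hM in
theorem nkr (hk : ¬ Kr χ M) : ¬ Kr χ ⁅N, N⁆ := fun e => hk fun x hx => e x (s.le hx)

theorem nr {Z : Subgroup G} [Z.Normal] (hZ : Z ≤ ⁅N, N⁆) {μ : Z →* ℂˣ} (h1 : μ ≠ 1) :
    (inertia Z (ln μ)).index.Coprime r := by
  obtain ⟨χ, hχ, ho⟩ := exists_irr_above Z (isIrrCharacter_hom μ)
  exact (s.cop hχ fun e => h1 (MonoidHom.ext fun x => lam_of_kr hχ ho e x (hZ x.2))).coprime_dvd_left
    (idx_dvd hχ (isIrrCharacter_hom μ) ho)

theorem dd : ⁅⁅N, N⁆, ⁅N, N⁆⁆ ≤ M := by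
  have := Fintype.ofFinite (G ⧸ M)
  have h1 := derivedSeries_two_eq_bot_of_cd (G := N.map (QuotientGroup.mk' M)) (m := m)
    fun d hd => or_iff_not_imp_left.2 fun e => by
      obtain ⟨ψ, hψ, rfl⟩ := mem_cd'.1 hd
      obtain ⟨-, χ, h1, h2, h3⟩ := (s.toHy.quot M s.le).res hψ e
      rw [← h3, ← s.hm _ h1.inflate (fun x hx => inflate_apply_of_mem _ χ hx) fun e' => h2 (by
        rw [← map_commutator]
        rintro _ ⟨x, hx, rfl⟩
        exact e' x hx)]
      exact charDegree_congr rfl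
  have h2 := congrArg (map (N.map (QuotientGroup.mk' M)).subtype) h1
  rw [derivedSeries_succ, derivedSeries_one, map_commutator, map_subtype_commutator,
    Subgroup.map_bot, ← map_commutator] at h2
  exact (commutator_le_iff_map_mk' _ _ _).2 h2

theorem dvd_idx {Y : Subgroup G} (h1 : M ≤ Y) (h2 : ⁅Y, Y⁆ ≤ M) {x : G} (hx : x ∈ Y)
    (h3 : x ∈ ⁅N, N⁆) (h4 : x ∉ M) : m ∣ Y.index := by
  obtain ⟨μ, a, b⟩ := ex_lam h2 hx h4
  by_contra hd
  obtain ⟨χ, c1, c2, c3⟩ := ex_over Y (isCharacter_hom μ) (m := m) (by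
    rwa [charDegree_hom, mul_one])
  exact c3 (s.hm χ c1 (kr_of_lam h1 c1 a c2) fun e => b (lam_of_kr c1 c2 e _ h3)).symm.dvd

theorem two [Group.IsSolvable G] : M ≤ 𝐂(⁅N, N⁆) := by
  by_contra hc
  have ab := s.mn.isMulCommutative inferInstance
  have := Fact.mk s.hq
  let π := QuotientGroup.mk' M
  have hπ : Function.Surjective π := QuotientGroup.mk'_surjective M
  obtain ⟨X, -, X1, X2⟩ := s.mn.le_frattini_or_exists_complement.resolve_left fun e =>
    hc (s.mn.le_centralizer_of_isNilpotent _ (isNilpotent_of_map_mk'_of_le_frattini e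
      (isNilpotent_of_commutator_commutator_eq_bot (by
        rw [(commutator_le_iff_map_mk' _ _ _).1 s.dd]; simp))))
  have lt : ¬ ⁅N, N⁆ ≤ M := fun e => hc (cent_symm (e.trans (le_centralizer M)))
  have lM : ∀ μ : M →* ℂˣ, M ≤ inertia M (ln μ) := fun μ =>
    le_inertia M (isIrrCharacter_hom μ).isClassFunction
  have key : ∀ μ : M →* ℂˣ, μ ≠ 1 → ⁅inertia M (ln μ), inertia M (ln μ)⁆ ≤ M ∧
      ¬ m ∣ (inertia M (ln μ)).index := fun μ h1 => by
    obtain ⟨η, hη⟩ := Pal.exists_ext_split X1 X2 μ (lM μ) le_rfl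
    have h2 : ∀ j ∈ cd (inertia M (ln μ) ⧸ M.subgroupOf (inertia M (ln μ))),
        (inertia M (ln μ)).index * j ∈ cd G := fun j hj => by
      simpa only [charDegree_hom, mul_one] using mul_mem_cd_of_extension M (isIrrCharacter_hom μ)
        (lM μ) le_rfl (isCharacter_hom η) (fun x => congrArg Units.val (hη x)) hj
    have h3 := mul_one (inertia M (ln μ)).index ▸ h2 1 one_mem_cd
    have h4 : (inertia M (ln μ)).index ≠ 1 := fun e =>
      s.ncen (cen_of s.mn h1 (index_eq_one.1 e).ge (mem_top n))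
    refine ⟨?_, fun hd => hc (cent_symm (cen_of s.mn h1 (le_small fun ψ a b c => ?_)))⟩
    · rw [← map_subtype_commutator, map_le_iff_le_comap]
      exact (commutator_le_iff_cd (M.subgroupOf _)).2 fun j hj => (Nat.mul_eq_left
        index_ne_zero_of_finite).1 (s.nd _ h3 _ (h2 j hj) h4 (dvd_mul_right _ _)).symm
    · obtain ⟨x, x1, x2⟩ := SetLike.not_le_iff_exists.1 lt
      obtain ⟨χ, c1, c2, c3⟩ := exists_irr_ker_ge_apply_ne M x2
      have c4 : ¬ Kr χ ⁅N, N⁆ := fun e => c3 (e x x1)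
      by_contra hk
      rw [s.hm ψ a (kr_of_ov_one (lM μ) a b) hk, ← s.hm χ c1 c2 c4, s.nd _ (charDegree_mem_cd c1) _ h3
        (ne1 c1 c4) (s.hm χ c1 c2 c4 ▸ hd)] at c
      exact lt_irrefl _ c
  have semi : ∀ μ : M →* ℂˣ, μ ≠ 1 → ∀ x ∈ inertia M (ln μ), x ∈ ⁅N, N⁆ → x ∈ M :=
    fun μ h1 x a b => by_contra fun c => (key μ h1).2 (s.dvd_idx (lM μ) (key μ h1).1 a b c)
  have := Pal.nontrivial_lin s.mn.ne_bot
  obtain ⟨ν, hν⟩ := exists_ne (1 : Lin M)
  obtain ⟨Z, hZ, Z1⟩ := exists_isMinNormal_le ((inferInstance : ⁅N, N⁆.Normal).map π hπ)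
    (mt (map_mk'_eq_bot_iff _ _).1 lt)
  have := hZ.normal
  obtain ⟨t, ht, Z2⟩ := hZ.isElementaryAbelian inferInstance
  have Z3 : Z.comap π ≤ ⁅N, N⁆ := (comap_mono Z1).trans
    (by rw [comap_map_mk']; exact sup_le le_rfl s.le)
  obtain ⟨⟨z, z1⟩, z2⟩ := ne_bot_iff_exists_ne_one.1 hZ.ne_bot
  obtain ⟨z, rfl⟩ := hπ z
  have z3 : z ∉ M := fun e => z2 (Subtype.ext ((QuotientGroup.eq_one_iff z).2 e))
  have hP := isPGroup_of_isElementaryAbelian Z2
  have tq : t ≠ q := by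
    rintro rfl
    exact z3 (semi ν hν z (centralizer_le_inertia M _ (cent_symm (s.mn.le_centralizer_of_isNilpotent
      (Z.comap π) (hP.comap_of_ker_isPGroup π (by rw [QuotientGroup.ker_mk']; exact s.pq)).isNilpotent)
      z1)) (Z3 z1))
  have := Fact.mk ht
  obtain ⟨_, -, hst⟩ := Pal.exists_act M M fun g hg a =>
    mem_inertia_lin.1 (le_inertia M (irr_lin a).isClassFunction hg)
  have cy : IsCyclic Z := Pal.isCyclic_of_fpf (V := Lin M) Z2.1
    (((IsPGroup.coprime_card_of_ne t q tq _ _ hP s.pq)).coprime_dvd_right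
      (by rw [card_lin]; exact Subgroup.relIndex_dvd_card _ _)) fun a ha v hv =>
      or_iff_not_imp_right.2 fun e => by
        obtain ⟨x, x1, rfl⟩ : a ∈ (inertia M (lin v)).map π := hst v ▸ hv
        exact (QuotientGroup.eq_one_iff x).2 (semi v e x x1 (Z3 ha))
  have tp : t = p := by
    by_contra e
    have h1 := congrArg π (s.cam s.n2 s.n3 (Z3 z1) s.n4)
    have h2 : Commute (π n) (π z) := (PGroup.commutator_le_centralizer_of_isCyclic (R := ⊤) (A := ⊤)
      cy le_normalizer_of_normal le_normalizer_of_normal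
      ((map_derivedSeries_le_derivedSeries π 1) ⟨n, s.n1, rfl⟩) _ z1).symm
    rw [map_pow, map_mul, h2.mul_pow, ← map_pow, s.n4, map_one, one_mul, ← map_pow] at h1
    exact z3 (mem_of_pp (i := 1) ht s.hp e ((QuotientGroup.eq_one_iff _).1
      (by rw [pow_one]; exact Z2.2 _ z1)) ((QuotientGroup.eq_one_iff _).1 h1))
  subst tp
  obtain ⟨R, _, R1, R2, j, R3⟩ := Hy.compl s.hp fun χ => s.dvd s.n2 s.n3 s.hp s.n4
  obtain ⟨μ, m1, m2, m3⟩ := Gar.fix (A := Z.comap π) (B := M) (by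
      rw [commutator_le_iff_map_mk', map_comap_mk', commutator_eq_bot_iff_le_centralizer]
      exact le_centralizer_iff_isMulCommutative.2 Z2.1) ht (by
      rw [← card_map_mk'_eq_relIndex, map_comap_mk']
      exact (hP.card_eq_or_dvd.resolve_left (mt card_eq_one.1 hZ.ne_bot)))
  have c1 : ⊤ ≤ inertia _ (ln μ) := le_of_cop (F := N) (le_of_cop (F := R) (le_inertia_of (K := M)
    (fun y hy => mem_of_pows R2 (by
        rw [show y ^ Nat.card R = 1 from congrArg Subtype.val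
          (pow_card_eq_one' (x := (⟨y, commutator_le_left _ _ hy⟩ : R)))]
        exact one_mem _)
      ((QuotientGroup.eq_one_iff _).1 (Z2.2 (π y) (commutator_le_right R (Z.comap π) hy)))) m2)
    (R3 ▸ (ht.coprime_iff_not_dvd.2 m3).pow_left j))
    (by rw [relIndex_top_right, s.idx]; exact (s.nr Z3 m1).symm)
  have c2 : Z ≤ center _ := hZ.le_center_or.resolve_right fun e => m1 (MonoidHom.ext fun y => by
    have h1 : (y : G) ∈ ⁅(⊤ : Subgroup G), Z.comap π⁆ ⊔ M := by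
      rw [← comap_map_mk', map_commutator, map_comap_mk', map_top_of_surjective _ hπ,
        commutator_comm, e]
      exact y.2
    obtain ⟨a, ha, b, hb, e⟩ := mem_sup_of_normal_left.1 h1
    rw [show y = ⟨a, commutator_le_right _ _ ha⟩ * ⟨b, le_comap_mk'' _ _ hb⟩ from Subtype.ext e.symm,
      map_mul, lam_comm c1 _ ha, m2 _ hb]
    exact mul_one _)
  refine (key ν hν).2 ((s.dvd_idx (Y := inertia M (ln ν) ⊔ Z.comap π) (le_sup_of_le_left (lM ν)) ?_
    (mem_sup_right z1) (Z3 z1) z3).trans (index_dvd_of_le le_sup_left))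
  have c3 := (key ν hν).1
  rw [commutator_le_iff_map_mk', commutator_eq_bot_iff_le_centralizer] at c3 ⊢
  rw [Subgroup.map_sup, map_comap_mk', Core.centralizer_sup]
  exact sup_le (le_inf c3 (cent_symm (c2.trans (center_le_centralizer _))))
    (le_inf (c2.trans (center_le_centralizer _)) (c2.trans (center_le_centralizer _)))

end St

end Cfsg.Lib.Nda
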