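import Cfsg.Agent.Lib.Nda.B

/-! The inductive step, first case. -/

set_option autoImplicit false

namespace Cfsg.Lib.Nda
open Cfsg.Lib.Char Cfsg.Lib.CharDeg Cfsg.Lib.Clifford Cfsg.Lib.Induce Cfsg.Lib.Core Cfsg.Lib.Gar
  Cfsg.Lib.RelGraph Cfsg.Lib.BG Subgroup
open scoped commutatorElement

variable {G : Type*} [Group G] [Fintype G] {N M : Subgroup G} {r p q k m : ℕ} {n : G} {χ : G → ℂ}

theorem two_kr {X Y : Subgroup G} (hX : X ≠ ⊥) (hY : Y ≠ ⊥) (h : X ⊓ Y = ⊥) :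
    ∃ χ, IsIrrCharacter G χ ∧ ¬ Kr χ X ∧ ¬ Kr χ Y := by
  obtain ⟨⟨x, x1⟩, x2⟩ := ne_bot_iff_exists_ne_one.1 hX
  obtain ⟨⟨y, y1⟩, y2⟩ := ne_bot_iff_exists_ne_one.1 hY
  have x3 : x ≠ 1 := fun e => x2 (Subtype.ext e)
  have y3 : y ≠ 1 := fun e => y2 (Subtype.ext e)
  have z : x * y ≠ 1 := fun e => x3 (mem_bot.1 (h.le (mem_inf.2
    ⟨x1, eq_inv_of_mul_eq_one_left e ▸ inv_mem y1⟩)))
  by_contra hc
  push Not at hc
  have e : ∑ χ : IrrCharacter G, ((χ : G → ℂ) 1 ^ 2 + (χ : G → ℂ) 1 * (χ : G → ℂ) (x * y)) =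
      ∑ χ : IrrCharacter G, ((χ : G → ℂ) 1 * (χ : G → ℂ) x + (χ : G → ℂ) 1 * (χ : G → ℂ) y) :=
    Finset.sum_congr rfl fun χ _ => by
      by_cases h1 : Kr (χ : G → ℂ) X
      · rw [χ.2.isCharacter.apply_mul_of_apply_eq (h1 x x1), h1 x x1, sq]
      · rw [χ.2.isCharacter.apply_mul_of_apply_eq' (hc _ χ.2 h1 y y1), hc _ χ.2 h1 y y1, sq, add_comm]
  simp only [Finset.sum_add_distrib, sum_irr_apply_one_sq, sum_irr_apply_one_mul_apply_of_ne_one x3,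
    sum_irr_apply_one_mul_apply_of_ne_one y3, sum_irr_apply_one_mul_apply_of_ne_one z, add_zero] at e
  exact card_ne_zero_complex G e

theorem cen_deg {H : Type*} [Group H] [Finite H] {θ : H → ℂ} (hθ : IsIrrCharacter H θ) {z : H}
    (h1 : z ∈ center H) (h2 : z ∈ _root_.commutator H) {j : ℕ} (h3 : z ^ j = 1)
    (h4 : j.Coprime (charDegree θ)) : θ z = θ 1 := by
  let μ : Lin (center H ⊓ _root_.commutator H : Subgroup H) := (centerHom θ hθ.apply_one_ne_zero).comp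
    (inclusion (inf_le_left.trans hθ.center_le_charCenter))
  have e := det_res (N := center H ⊓ _root_.commutator H) inf_le_right hθ.isCharacter
  rw [show (fun n : (center H ⊓ _root_.commutator H : Subgroup H) => θ n) =
    ((charDegree θ : ℕ) : ℂ) • lin μ from funext fun x => by
      rw [Pi.smul_apply, ← hθ.isCharacter.apply_one_eq, smul_eq_mul, mul_comm]
      exact apply_eq_centerHom_mul hθ.apply_one_ne_zero ⟨x, _⟩,
    det_smul (irr_lin μ).isCharacter, det_lin] at e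
  refine (centerHom_eq_one_iff hθ.apply_one_ne_zero ⟨z, hθ.center_le_charCenter h1⟩).1
    (eq_one_of_coprime (x := μ.hom ⟨z, h1, h2⟩) h4 ?_ 
      (congrArg (fun c : Lin (center H ⊓ _root_.commutator H : Subgroup H) => c.hom ⟨z, h1, h2⟩) e))
  rw [← map_pow, show (⟨z, h1, h2⟩ : (center H ⊓ _root_.commutator H : Subgroup H)) ^ j = 1 from
    Subtype.ext h3, map_one]

namespace St
variable [hN : N.Normal] [hM : M.Normal] (s : St G N M r p q k m n) [Group.IsSolvable G]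
include s

theorem leC : ⁅N, N⁆ ≤ N ⊓ 𝐂(M) := le_inf (commutator_le_left N N) (cent_symm s.two)

theorem idxC {μ : M →* ℂˣ} (h : μ ≠ 1) : (inertia M (ln μ)).index * r = (N ⊓ 𝐂(M)).index := by
  have c := s.nr s.le h
  have l := centralizer_le_inertia M (ln μ)
  have : (inertia M (ln μ) ⊓ N).Normal := normalizer_eq_top_iff.1 (top_le_iff.1
    ((sup_eq_top_of_coprime_index (s.idx ▸ c)).ge.trans (sup_le
      (norm_inf (le_norm _) le_normalizer_of_normal) (Coprime.le_normalizer_of_commutator_le inf_le_right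
        (s.leC.trans (le_inf (inf_le_right.trans l) inf_le_left))))))
  rw [← s.idx, ← Coprime.index_inf_of_coprime (s.idx ▸ c)]
  exact congrArg index (le_antisymm (le_inf inf_le_right (cen_of s.mn h inf_le_left))
    (le_inf (inf_le_right.trans l) inf_le_left))

theorem bel (hχ : IsIrrCharacter G χ) (hk : ¬ Kr χ M) : ∃ μ : M →* ℂˣ, μ ≠ 1 ∧ ov M χ (ln μ) := by
  obtain ⟨μ, -, h⟩ := lam_below (F := ⊥) (L := M) (commutator_eq_bot_iff_le_centralizer.2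
    ((s.le.trans s.leC).trans inf_le_right)).le hχ fun x hx => mem_bot.1 hx ▸ rfl
  exact ⟨μ, fun e => hk (kr_of_lam le_rfl hχ (fun x _ => e ▸ rfl) h), h⟩

theorem cdvd {ψ : G → ℂ} (hχ : IsIrrCharacter G χ) (hk : ¬ Kr χ ⁅N, N⁆)
    (hd : charDegree χ ∣ (N ⊓ 𝐂(M)).index) (hψ : IsIrrCharacter G ψ) (h : ¬ Kr ψ M) :
    charDegree χ = charDegree ψ ∧ charDegree χ * r ∣ (N ⊓ 𝐂(M)).index := by
  obtain ⟨μ, h1, h2⟩ := s.bel hψ h
  rw [← s.idxC h1] at hd ⊢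
  have := (s.cop hχ hk).dvd_of_dvd_mul_right hd
  exact ⟨s.eq_of_dvd hχ hψ hk (this.trans (idx_dvd hψ (isIrrCharacter_hom μ) h2)),
    Nat.mul_dvd_mul_right this r⟩

theorem caseA (h : ¬ M ≤ ⁅N ⊓ 𝐂(M), N ⊓ 𝐂(M)⁆) :
    ∃ m, ∀ χ, IsIrrCharacter G χ → ¬ Kr χ ⁅N, N⁆ → charDegree χ = m := by
  obtain ⟨x, x1, x2⟩ := SetLike.not_le_iff_exists.1 h
  obtain ⟨ξ, a1, a2, a3⟩ := exists_irr_ker_ge_apply_ne _ x2
  have a4 : ¬ Kr ξ M := fun e => a3 (e x x1)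
  have h0 : ⁅N ⊓ 𝐂(M), N ⊓ 𝐂(M)⁆ = ⊥ := by
    by_contra h0
    obtain ⟨χ, c1, c2, c3⟩ := two_kr s.mn.ne_bot h0 ((s.mn.min _ inferInstance inf_le_left).resolve_right
      fun e => h (inf_eq_left.1 e))
    obtain ⟨μ, m1, m2⟩ := s.bel c1 c2
    obtain ⟨ψ, p1, rfl, -⟩ := exists_indFun_eq_of_over M
      (le_inertia M (isIrrCharacter_hom μ).isClassFunction) (isIrrCharacter_hom μ) le_rfl c1 m2
    obtain ⟨d1, d2⟩ := s.cdvd a1 (s.nkr a4) (ito_kr le_rfl a1 a2) c1 c2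
    rw [d1, deg_ind _ p1.isCharacter, ← s.idxC m1, Nat.mul_dvd_mul_iff_right s.hr.pos] at d2
    have l := (inf_le_right : N ⊓ 𝐂(M) ≤ _).trans (centralizer_le_inertia M (ln μ))
    exact c3 (kr_of_const ((commutator_le_left _ _).trans l) c1 p1
      ((ov_iff c1.isClassFunction).1 (by rw [c1.inner_self]; exact one_ne_zero)) fun y hy =>
        kr_lin p1.isCharacter (Nat.eq_one_of_dvd_one ((Nat.mul_dvd_mul_iff_left
          (Nat.pos_of_ne_zero index_ne_zero_of_finite)).1 (d2.trans (mul_one _).symm.dvd))) y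
          (commutator_mono l l hy))
  exact ⟨_, fun χ c1 c2 => (s.cdvd c1 c2 (ito_kr h0.le c1 fun x hx => mem_bot.1 hx ▸ rfl) a1 a4).1⟩

theorem qdvd (h : M ≤ ⁅N ⊓ 𝐂(M), N ⊓ 𝐂(M)⁆) (hχ : IsIrrCharacter G χ) (hk : ¬ Kr χ M) :
    q ∣ charDegree χ := by
  obtain ⟨θ, t1, t2⟩ := exists_irr_below (N ⊓ 𝐂(M)) hχ
  by_contra hd
  refine hk (kr_of_const (s.le.trans s.leC) hχ t1 t2 fun x hx => ?_)
  obtain ⟨j, hj⟩ := s.pq ⟨x, hx⟩
  refine cen_deg t1 (mem_center_iff.2 fun g => Subtype.ext (g.2.2 x hx).symm) ?_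
    (j := q ^ j) (Subtype.ext (congrArg (Subtype.val (p := (· ∈ M))) hj)) ((s.hq.coprime_iff_not_dvd.2 fun e =>
      hd (e.trans ((dvd_mul_left _ _).trans (deg_dvd hχ t1 t2)))).pow_left j)
  obtain ⟨y, y1, y2⟩ := (map_subtype_commutator _).ge (h hx)
  exact (Subtype.ext y2 : y = x) ▸ y1

omit [Group.IsSolvable G] in
theorem exq : ∃ χ, IsIrrCharacter G χ ∧ ¬ Kr χ ⁅N, N⁆ ∧ ¬ q ∣ charDegree χ := by
  by_contra hc
  push Not at hc
  obtain ⟨R, _, -, R2, j, R3⟩ := Hy.compl s.hq hc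
  have h1 : n ∈ R := mem_of_pp s.hp s.hq s.ne (s.n4 ▸ one_mem R) (R3 ▸
    show n ^ R.relIndex N ∈ R from (R.subgroupOf N).pow_index_mem ⟨n, s.n2⟩)
  exact s.ncen (commutator_eq_bot_iff_le_centralizer.1 (eq_bot_mono (disjoint_of_coprime_natCard
    (cop_of s.hq s.pq (s.hq.coprime_iff_not_dvd.1 R2.symm))).eq_bot
      (le_inf (commutator_le_left R M) (commutator_le_right R M))) h1)

end St

end Cfsg.Lib.Nda
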