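import Cfsg.Agent.Lib.Nda.C

/-! The inductive step, second case, and the induction. -/

set_option autoImplicit false

namespace Cfsg.Lib.Nda
open Cfsg.Lib.Char Cfsg.Lib.CharDeg Cfsg.Lib.Clifford Cfsg.Lib.Induce Cfsg.Lib.Core Cfsg.Lib.Gar
  Cfsg.Lib.RelGraph Cfsg.Lib.BG Subgroup Cfsg.Lib.Pal
open scoped commutatorElement

universe u

section
variable {G : Type*} [Group G] [Fintype G] {P A : Subgroup G} [P.Normal]
  (hc' : (Nat.card A).Coprime (Nat.card P)) (hP : Group.IsSolvable P)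
include hc' hP

theorem ann_fix' {a : Lin P} (ha : a ∈ ann P (P ⊓ 𝐂(A))) (h : ∀ x : P, (x : G) ∈ ⁅P, A⁆ → ev x a = 1) :
    a = 1 := ev_eq_one fun y => by
  obtain ⟨n, hn, c, hc, e⟩ := Coprime.exists_commutator_mul_centralizer le_normalizer_of_normal
    hc' (Or.inr hP) y.2
  rw [show y = ⟨n, commutator_le_left _ _ hn⟩ * ⟨c, hc.1⟩ from Subtype.ext e]
  change ((a.hom _ : ℂˣ) : ℂ) = 1
  rw [map_mul, Units.val_mul]
  exact (congrArg₂ (· * ·) (h ⟨n, _⟩ hn) (ha ⟨c, hc.1⟩ hc)).trans (mul_one _)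

theorem card_lt' (hZ : ⁅P, P⁆ ≤ 𝐂(P)) (hc : A ≤ 𝐂(⁅P, P⁆)) (hn : ¬ A ≤ 𝐂(P))
    (t : ∀ μ : Lin (⁅P, P⁆ : Subgroup G), μ ≠ 1 → ∃ θ : P → ℂ, IsIrrCharacter P θ ∧
      (∀ n : (⁅P, P⁆ : Subgroup G), θ ⟨n, commutator_le_left P P n.2⟩ = θ 1 * ev n μ) ∧
      ∀ b, A ≤ inertia P (tw b θ)) :
    Nat.card (Lin (⁅P, P⁆ : Subgroup G)) < Nat.card (ann P (P ⊓ 𝐂(A))) := by
  obtain ⟨x, h1, h2⟩ : ∃ x ∈ ⁅P, A⁆, x ∉ 𝐂(A) := by
    by_contra! h
    exact hn (Coprime.le_centralizer_of_commutator_commutator_eq_bot le_normalizer_of_normal hc'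
      (commutator_eq_bot_iff_le_centralizer.2 h))
  have hD0 : ⁅P, P⁆ ≤ P ⊓ 𝐂(A) := le_inf (commutator_le_left _ _) (cent_symm hc)
  lift x to P using commutator_le_left _ _ h1
  obtain ⟨a, h3, h4⟩ := ex_lam hD0 x.2 fun h => h2 h.2
  have h5 : (x : G) ∈ 𝐂(P ⊓ 𝐂(A)) := Coprime.le_centralizer_of_normal_of_fixed
    (Coprime.commutator_commutator_eq' le_normalizer_of_normal hc') inf_le_right
    ((commutator_le_left _ _).trans (Coprime.le_normalizer_of_commutator_le inf_le_left hD0)) h1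
  let f : P →* (⁅P, P⁆ : Subgroup G) := MonoidHom.mk' (fun y => ⟨⁅(x : G), (y : G)⁆,
    commutator_mem_commutator x.2 y.2⟩) fun y z => Subtype.ext (by
      have := hZ (commutator_mem_commutator x.2 z.2) y y.2
      change ⁅(x : G), (y : G) * z⁆ = ⁅(x : G), (y : G)⁆ * ⁅(x : G), (z : G)⁆
      rw [← mul_inv_eq_iff_eq_mul] at this
      rw [← this]; simp only [commutatorElement_def]; group)
  let F : Lin (⁅P, P⁆ : Subgroup G) →* ann P (P ⊓ 𝐂(A)) := MonoidHom.mk' (fun μ => ⟨μ.hom.comp f, fun y hy => by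
    change ((μ.hom (f y) : ℂˣ) : ℂ) = 1
    rw [show f y = 1 from Subtype.ext (commutatorElement_eq_one_iff_mul_comm.2 (h5 y hy).symm), map_one,
      Units.val_one]⟩) fun _ _ => rfl
  have hF : Function.Injective F := (injective_iff_map_eq_one F).2 fun μ hμ => by
    by_contra h6
    obtain ⟨θ, t1, t3, t5⟩ := t μ h6
    have t4 : θ x ≠ 0 := ne_zero_of_comm t1 fun y => by
      have e1 : ev (f y) μ = 1 := congrArg (fun b : ann P _ => ev y b.1) hμ
      have := t3 (f y)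
      rwa [e1, mul_one] at this
    obtain ⟨n, hn, e⟩ := Coprime.exists_mul_mem_centralizer' (A := A) (N := ⁅P, P⁆) (k := x)
      le_normalizer_of_normal (coprime_mono hc' le_rfl (commutator_le_left _ _))
      (Or.inr (Group.isSolvable_of_isSolvable_injective (inclusion_injective (commutator_le_left P P))))
      fun g hg => by
        by_contra e1
        obtain ⟨b, e2, e3⟩ := exists_hom_sep (G := P) le_rfl
          (x := ⟨g * x * g⁻¹, Normal.conj_mem inferInstance _ x.2 g⟩ * x⁻¹) fun h => e1 (by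
            rw [← map_subtype_commutator]; exact ⟨_, h, rfl⟩)
        have e4 := (mem_inertia_iff P).1 (t5 b hg) x
        have e5 := (mem_inertia_iff P).1 (tw_one θ ▸ t5 1 hg) x
        simp only [tw, e5] at e4
        exact e3 (by rw [map_mul, map_inv, mul_inv_eq_one]; exact Units.ext (mul_right_cancel₀ t4 e4))
    exact h2 ((Subgroup.mul_mem_cancel_left _ (hD0 hn).2).1 e)
  refine not_le.1 fun h => h4 ?_
  obtain ⟨μ, e⟩ := (hF.bijective_of_nat_card_le h).2 ⟨a, fun y hy => congrArg Units.val (h3 y hy)⟩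
  rw [← show (F μ).1 = a from congrArg Subtype.val e]
  change μ.hom (f x) = 1
  rw [show f x = 1 from Subtype.ext (commutatorElement_self _), map_one]

theorem nrm_cen {C : Subgroup G} [hC : C.Normal] (h : P ⊔ A = C) (hc : A ≤ 𝐂(⁅P, P⁆)) :
    (P ⊓ 𝐂(A)).Normal := by
  have e : P ⊓ 𝐂(A) = P ⊓ (𝐂(C.map (QuotientGroup.mk' ⁅P, P⁆))).comap (QuotientGroup.mk' _) := by
    refine le_antisymm (le_inf inf_le_left ?_) fun x hx => ⟨hx.1, ?_⟩
    · rw [← map_le_iff_le_comap, ← h, Subgroup.map_sup, Core.centralizer_sup, le_inf_iff,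
        ← commutator_eq_bot_iff_le_centralizer, ← commutator_eq_bot_iff_le_centralizer,
        ← commutator_le_iff_map_mk', ← commutator_le_iff_map_mk']
      exact ⟨commutator_mono inf_le_left le_rfl,
        (commutator_eq_bot_iff_le_centralizer.2 inf_le_right).le.trans bot_le⟩
    · obtain ⟨n, hn, e⟩ := Coprime.exists_mul_mem_centralizer' (A := A) (N := ⁅P, P⁆) (k := x)
        le_normalizer_of_normal (coprime_mono hc' le_rfl (commutator_le_left _ _))
        (Or.inr (Group.isSolvable_of_isSolvable_injective (inclusion_injective (commutator_le_left P P))))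
        fun g hg => (QuotientGroup.eq_one_iff _).1 (commutatorElement_eq_one_iff_mul_comm.2
          (hx.2 (g : G ⧸ ⁅P, P⁆) ⟨g, h.le (mem_sup_right hg), rfl⟩))
      exact (Subgroup.mul_mem_cancel_left _ (cent_symm hc hn)).1 e
  have := hC.map _ (QuotientGroup.mk'_surjective ⁅P, P⁆)
  rw [e]; infer_instance

end

variable {G : Type*} [Group G] [Fintype G] {N M : Subgroup G} {r p q k m : ℕ} {n : G} {χ : G → ℂ}

theorem Hy.nrho [N.Normal] (h : Hy G N r) {a : ℕ} (ha : a.Prime) : ¬ Rho G (a * r) := by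
  rintro ⟨_, h1, h2⟩
  obtain ⟨χ, c, rfl⟩ := mem_cd'.1 h1
  have := h2.trans (ito_kr le_rfl c (h.ab χ c ((dvd_mul_left _ _).trans h2)))
  rw [h.idx] at this
  exact ha.ne_one (Nat.eq_one_of_dvd_one ((Nat.mul_dvd_mul_iff_right h.hr.pos).1
    (this.trans (one_mul r).symm.dvd)))

theorem St.caseB [N.Normal] [M.Normal] (s : St G N M r p q k m n) [Group.IsSolvable G]
    (h : M ≤ ⁅N ⊓ 𝐂(M), N ⊓ 𝐂(M)⁆) : False := by
  have := Fact.mk s.hq
  have := Fact.mk s.hr
  obtain ⟨χ₁, a1, a2, a3⟩ := s.exq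
  have a4 : Kr χ₁ M := by_contra fun e => a3 (s.qdvd h a1 e)
  obtain ⟨χ₀, b1, b2⟩ := ex_not_kr s.mn.ne_bot
  have b3 := s.qdvd h b1 b2
  have qr : q ≠ r := fun e => s.nkr b2 (s.ab _ b1 (e ▸ b3))
  obtain ⟨S⟩ : Nonempty (Sylow q G) := inferInstance
  obtain ⟨c1, c2⟩ := a0 s.mn ⟨_, charDegree_mem_cd b1, b3⟩ (by
    rintro ⟨_, h1, h2⟩
    obtain ⟨ψ, c, rfl⟩ := mem_cd'.1 h1
    have c' : Kr (fun g : G => ψ g) M := fun x hx => inflate_apply_of_mem _ ψ hx
    change q ∣ charDegree fun g : G => ψ g at h2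
    by_cases e : Kr (fun g : G => ψ g) ⁅N, N⁆
    · exact qr ((Nat.prime_dvd_prime_iff_eq s.hq s.hr).1 (s.idx ▸ h2.trans (ito_kr le_rfl c.inflate e)))
    · exact a3 (by rwa [s.hm _ a1 a4 a2, ← s.hm _ c.inflate c' e])) S
  have hS : (S : Subgroup G).Normal := by_contra fun e =>
    e (sup_eq_left.2 (s.pq.le_sylow_of_normal S) ▸ (c2 e).1)
  have hi := S.not_dvd_index
  have hP := S.2
  replace c1 := c1 hS
  generalize (S : Subgroup G) = P at hS hi hP c1
  subst c1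
  clear c2
  have cop := cop_of_syl hP hi
  have hZ := s.mn.le_centralizer_of_isNilpotent P hP.isNilpotent
  have PC : P ≤ N ⊓ 𝐂(⁅P, P⁆) := le_inf (le_of_cop bot_le (by
    rw [relIndex_bot_left, s.idx]
    exact (cop_of s.hq hP (mt (Nat.prime_dvd_prime_iff_eq s.hq s.hr).1 qr)).symm)) (cent_symm hZ)
  have ext : ∀ θ, IsIrrCharacter P θ → ∀ j ∈ cd (inertia P θ ⧸ P.subgroupOf (inertia P θ)),
      (inertia P θ).index * (j * charDegree θ) ∈ cd G := fun θ t j hj => by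
    have h1 := le_inertia P t.isClassFunction
    obtain ⟨η, h2, h3⟩ := exists_extension_le_of_coprime P h1 t le_rfl
      (cop.coprime_dvd_right (relIndex_dvd_index_of_le h1))
    exact mul_mem_cd_of_extension P t h1 le_rfl h2.isCharacter h3 hj
  have ab : ∀ μ : Lin (⁅P, P⁆ : Subgroup G), μ ≠ 1 → ∃ θ : P → ℂ, IsIrrCharacter P θ ∧
      q ∣ charDegree θ ∧
      (∀ n : (⁅P, P⁆ : Subgroup G), θ ⟨n, commutator_le_left P P n.2⟩ = θ 1 * ev n μ) ∧
      (∀ b, inertia P (tw b θ) = inertia _ (lin μ)) ∧ ⁅inertia _ (lin μ), inertia _ (lin μ)⁆ ≤ P :=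
    fun μ hμ => by
    obtain ⟨θ, t1, t2, t3, t4⟩ := above' hP hi s.mn le_rfl hμ
    have t5 := ext θ t1 1 one_mem_cd
    have t6 : (inertia P θ).index * (1 * charDegree θ) ≠ 1 := fun e =>
      s.hq.ne_one (Nat.eq_one_of_dvd_one (e ▸ (t2.mul_left _).mul_left _))
    have t7 : 0 < charDegree θ := t1.charDegree_pos
    refine ⟨θ, t1, t2, t3, fun b => ?_, ?_⟩
    · have l : inertia P (tw b θ) ≤ inertia P θ := fun g hg => t4 ▸ (mem_inertia_iff _).2 fun y => by
        have e := (mem_inertia_iff P).1 hg ⟨y, commutator_le_left P P y.2⟩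
        have e1 : ∀ z : P, (z : G) ∈ ⁅P, P⁆ → ev z b = 1 := fun z =>
          comm_le_ker (le_inertia P (irr_lin b).isClassFunction)
        have e2 := Normal.conj_mem inferInstance _ y.2 g
        simp only [tw] at e
        rw [e1 _ e2, e1 _ y.2, one_mul, one_mul, t3 y, t3 ⟨_, e2⟩] at e
        exact mul_left_cancel₀ t1.apply_one_ne_zero e
      have t8 := ext _ (irr_tw b t1) 1 one_mem_cd
      rw [deg_tw] at t8
      refine (le_antisymm l (relIndex_eq_one.1 (Nat.eq_of_mul_eq_mul_right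
        (Nat.pos_of_ne_zero index_ne_zero_of_finite) ((relIndex_mul_index l).trans ?_)))).trans t4
      exact (Nat.eq_of_mul_eq_mul_right (by omega) (s.nd _ t5 _ t8 t6
        (Nat.mul_dvd_mul_right (index_dvd_of_le l) _))).symm.trans (one_mul _).symm
    · rw [← t4, ← map_subtype_commutator, map_le_iff_le_comap]
      exact (commutator_le_iff_cd (P.subgroupOf _)).2 fun j hj => Nat.eq_of_mul_eq_mul_right t7
        (Nat.eq_of_mul_eq_mul_left (Nat.pos_of_ne_zero index_ne_zero_of_finite) (s.nd _ t5 _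
          (ext θ t1 j hj) t6 (Nat.mul_dvd_mul_left _ (Nat.mul_dvd_mul_right (one_dvd j) _)))).symm
  obtain ⟨A, A1, A2, A3, A4⟩ := Coprime.exists_complement PC le_normalizer_of_normal
    (cop.coprime_dvd_right (relIndex_dvd_index_of_le PC))
  have hc' : (Nat.card A).Coprime (Nat.card P) :=
    A4 ▸ (cop.coprime_dvd_right (relIndex_dvd_index_of_le PC)).symm
  have hc := A1.trans inf_le_right
  have := s.mn.isMulCommutative inferInstance
  have := nontrivial_lin s.mn.ne_bot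
  obtain ⟨ν, hν⟩ := exists_ne (1 : Lin (⁅P, P⁆ : Subgroup G))
  have hlt := card_lt' hc' (pgroup_sol hP) hZ hc (fun e => by
      have e1 : ⁅A, A⁆ = ⊥ := eq_bot_mono A2 (le_inf ((commutator_mono
        (hc.trans (centralizer_le_inertia _ _)) (hc.trans (centralizer_le_inertia _ _))).trans
        (ab ν hν).choose_spec.2.2.2.2) (der_le _))
      have e2 : ⁅N ⊓ 𝐂(⁅P, P⁆), N ⊓ 𝐂(⁅P, P⁆)⁆ ≤ ⁅P, P⁆ := by
        rw [← A3]
        refine (Coprime.commutator_sup_le_of_le_normalizer le_normalizer_of_normal).trans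
          (sup_le (sup_le ?_ le_rfl) (e1.le.trans bot_le))
        exact (commutator_eq_bot_iff_le_centralizer.2 (cent_symm e)).le.trans bot_le
      exact a3 ((s.cdvd a1 a2 (ito_kr e2 a1 a4) b1 b2).1 ▸ b3))
    fun μ hμ => (ab μ hμ).imp fun θ t => ⟨t.1, t.2.2.1, fun b =>
      t.2.2.2.1 b ▸ hc.trans (centralizer_le_inertia _ _)⟩
  have hn := nrm_cen hc' (pgroup_sol hP) A3 hc
  obtain ⟨_, hsm, hst⟩ := exists_act ⁅P, P⁆ P fun g hg a =>
    mem_inertia_lin.1 (centralizer_le_inertia _ _ (cent_symm hZ hg))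
  obtain ⟨_, hsm', hst'⟩ := exists_act P P fun g hg a =>
    mem_inertia_lin.1 (le_inertia P (irr_lin a).isClassFunction hg)
  have ns : ∀ a : Lin (⁅P, P⁆ : Subgroup G), a ≠ 1 → ∃! R : Sylow r (G ⧸ P),
      (R : Subgroup (G ⧸ P)) ≤ MulAction.stabilizer _ a := fun a ha => by
    obtain ⟨θ, t1, t2, -, t3, -⟩ := ab a ha
    obtain ⟨R, e5, e6, -⟩ := key_cop cop t1 s.hq qr (s.toHy.nrho s.hq) (t2.mul_left _)
    rw [← tw_one θ, t3, ← hst] at e5 e6
    exact ⟨R, e5, e6⟩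
  obtain ⟨i, hk⟩ := IsPGroup.iff_card.1 hP
  obtain ⟨R⟩ : Nonempty (Sylow r (G ⧸ P)) := inferInstance
  obtain ⟨a, c, h1, h2, -, h3⟩ := count_pow (W := ann P (P ⊓ 𝐂(A))) (k := i) s.hq
    ((card_subgroup_dvd_card _).trans (by rw [card_lin, ← hk]; exact Subgroup.relIndex_dvd_card _ _))
    (fun e => by rw [e, card_bot] at hlt; have := Nat.card_pos (α := Lin (⁅P, P⁆ : Subgroup G)); omega)
    (fun g a ha y hy => by
      obtain ⟨g, rfl⟩ := QuotientGroup.mk_surjective g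
      rw [hsm']
      exact ha ⟨g⁻¹ * y * g⁻¹⁻¹, Normal.conj_mem inferInstance _ y.2 _⟩ (hn.conj_mem _ hy _))
    (fun a ha h1 => by
      obtain ⟨χ, c1, c2⟩ := exists_irr_above P (irr_lin a)
      obtain ⟨t, ht, hd⟩ := Nat.exists_prime_and_dvd (n := (inertia P (lin a)).index) fun e =>
        h1 (ann_fix' hc' (pgroup_sol hP) ha fun x => comm_le_ker (le_top.trans (index_eq_one.1 e).ge))
      obtain ⟨S, e5, e6, -⟩ := key_cop cop (irr_lin a) ht (s := r) (fun e => h1 (ann_fix' hc'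
        (pgroup_sol hP) ha fun x hx => congrArg Units.val (lam_of_kr (μ := a.hom) c1 c2 (s.ab χ c1
          (e ▸ hd.trans (idx_dvd c1 (irr_lin a) c2))) x (commutator_mono (PC.trans inf_le_left)
            (A1.trans inf_le_left) hx)))) (s.toHy.nrho ht) (hd.mul_right _)
      exact ⟨S, hst' a ▸ e5, fun T hT => e6 T (hst' a ▸ hT)⟩) R
  obtain ⟨b, e, h4, h5, -, h7⟩ := count_pow (W := (⊤ : Subgroup (Lin (⁅P, P⁆ : Subgroup G)))) (k := i) s.hq
    (by rw [card_top, card_lin, ← hk]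
        exact (Subgroup.relIndex_dvd_card _ _).trans (card_dvd_of_le (commutator_le_left _ _)))
    top_ne_bot (fun _ _ _ => mem_top _) (fun a _ h => ns a h) R
  have h8 : 1 < Nat.card (Sylow r (G ⧸ P)) := by
    by_contra h
    have : Subsingleton (Sylow r (G ⧸ P)) := Finite.card_le_one_iff_subsingleton.1 (not_lt.1 h)
    have := R.normal_of_subsingleton
    obtain ⟨R', e1, -⟩ := ns ν hν
    obtain rfl := Subsingleton.elim R R'
    have e2 := cen_of s.mn (μ := ν.hom) hν (K := (R : Subgroup (G ⧸ P)).comap (QuotientGroup.mk' P)) (by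
      refine (comap_mono (hst ν ▸ e1)).trans ?_
      rw [comap_map_mk']
      exact sup_le le_rfl ((cent_symm hZ).trans (centralizer_le_inertia _ _)))
    have e3 : N ⊔ 𝐂(⁅P, P⁆) = ⊤ := sup_eq_top_of_coprime_index (s.idx ▸
      s.hr.coprime_iff_not_dvd.2 fun e => R.not_dvd_index (index_comap_of_surjective _
        (QuotientGroup.mk'_surjective P) ▸ e.trans (index_dvd_of_le e2)))
    refine s.ncen ((?_ : ⁅(⊤ : Subgroup G), (⊤ : Subgroup G)⁆ ≤ _) s.n1)
    rw [← e3, sup_comm]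
    exact Coprime.commutator_sup_le_sup_commutator le_normalizer_of_normal |>.trans
      (sup_le le_rfl (cent_symm s.two))
  rw [card_top] at h5
  rw [h2, h5, eq_of_eqn s.hq.two_le h8 h1 h4 h3 h7] at hlt
  exact lt_irrefl _ hlt

theorem Hy.main (G : Type u) [Group G] [Finite G] : Group.IsSolvable G → ∀ (N : Subgroup G) [N.Normal]
    (r : ℕ), Hy G N r → ∃ m, ∀ χ, IsIrrCharacter G χ → ¬ Kr χ ⁅N, N⁆ → charDegree χ = m := by
  refine induction_on_card (P := fun G _ _ => Group.IsSolvable G → ∀ (N : Subgroup G) [N.Normal]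
    (r : ℕ), Hy G N r → ∃ m, ∀ χ, IsIrrCharacter G χ → ¬ Kr χ ⁅N, N⁆ → charDegree χ = m) G
    fun G _ _ ih _ N hN r h => ?_
  have := Fintype.ofFinite G
  by_cases h0 : ⁅N, N⁆ = ⊥
  · exact ⟨0, fun χ _ e => absurd (fun x hx => by rw [mem_bot.1 (h0.le hx)]) e⟩
  obtain ⟨p, k, hp, n, n1, n2, n3, n4⟩ := h.ex_n h0
  obtain ⟨R, _, R1, R2, j, R3⟩ := Hy.compl hp fun χ => h.dvd n2 n3 hp n4
  by_cases h1 : R ⊓ ⁅N, N⁆ = ⊥
  · obtain ⟨ξ, a1, a2⟩ := ex_not_kr h0
    have d : ∀ χ, IsIrrCharacter G χ → ¬ Kr χ ⁅N, N⁆ → ∃ i, charDegree χ = p ^ i := fun χ c1 c2 => by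
      have e := ito_kr (K := ⊥) (h1 ▸ le_inf (commutator_le_left R R) (commutator_mono R1 R1)) c1
        fun x hx => mem_bot.1 hx ▸ rfl
      rw [← relIndex_mul_index R1, R3, h.idx] at e
      exact ((Nat.dvd_prime_pow hp).1 ((h.cop c1 c2).dvd_of_dvd_mul_right e)).imp fun _ e => e.2
    refine ⟨charDegree ξ, fun χ c1 c2 => ?_⟩
    obtain ⟨i, hi⟩ := d χ c1 c2
    obtain ⟨l, hl⟩ := d ξ a1 a2
    rcases le_total i l with e | e
    · exact h.eq_of_dvd c1 a1 c2 (hi ▸ hl ▸ pow_dvd_pow p e)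
    · exact (h.eq_of_dvd a1 c1 a2 (hi ▸ hl ▸ pow_dvd_pow p e)).symm
  obtain ⟨M, hM, M1⟩ := exists_isMinNormal_le inferInstance h1
  have := hM.normal
  obtain ⟨q, hq, M2⟩ := hM.isElementaryAbelian inferInstance
  have := Fact.mk hq
  have pq := isPGroup_of_isElementaryAbelian M2
  have := hN.map _ (QuotientGroup.mk'_surjective M)
  obtain ⟨m, hm⟩ := ih (G ⧸ M) (card_quotient_lt hM.ne_bot) inferInstance _ r
    (h.quot M (M1.trans inf_le_right))
  have s : St G N M r p q k m n := ⟨h, hM, M1.trans inf_le_right, hq, pq, hp, fun e => hM.ne_bot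
    (card_eq_one.1 (pq.card_eq_or_dvd.resolve_right fun e' => hp.ne_one (Nat.eq_one_of_dvd_coprimes R2
      ((e ▸ e').trans (card_dvd_of_le (M1.trans inf_le_left))) dvd_rfl))), n1, n2, n3, n4,
    fun χ c1 c2 c3 => by
      obtain ⟨ψ, e1, e2⟩ := c1.exists_deflate M c2
      rw [← hm ψ e1 fun e => c3 fun x hx => by
        rw [← e2, ← e2]
        exact e x (map_commutator N N (QuotientGroup.mk' M) ▸ mem_map_of_mem _ hx)]
      exact charDegree_congr (e2 1).symm⟩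
  exact s.caseA s.caseB

end Cfsg.Lib.Nda
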